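import Cfsg.Agent.H512.LinRow
import Cfsg.Agent.H716.RGDAb

/-!
# Classical groups: torus elements and the criteria of `LinRow` (for S3932)

* `Real ℓ F K m B` : `K` is a projective linear group over `F` with a root group datum of characteristic `ℓ`, whose torus
  elements have `m`-th power `1` and are images of elements having all vectors of `B` as eigenvectors;
* `row_full` : criterion with an irreducible element of order `r`;
* `row_frame` : criterion with an element of order `r` irreducible on `range (X - 1)` and moving all vectors of `B`;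
* `real_C` : Witt models of type `C`; `tor_pow`, `tor_pow_of_le_one`, `tor_pow_of_card` : the exponent.
-/

set_option autoImplicit false
set_option linter.style.haveILetI false
set_option linter.unusedSectionVars false

namespace Cfsg.Agent.H512.SylNum

open Module Cfsg.Agent.H150

universe uK

/-- a projective linear group with torus data -/
structure Real (ℓ : ℕ) (F : Type*) [Field F] {V : Type*} [AddCommGroup V] [Module F V] (K : Type*) [Group K] (m : ℕ)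
    (B : Set V) where
  I : Subgroup (V ≃ₗ[F] V)
  φ : I →* K
  surj : Function.Surjective φ
  ker : ∀ g, φ g = 1 → ∃ c : F, ∀ v, g.1 v = c • v
  rgd : HasRGDQ ℓ K (fun t => t ^ m = 1 ∧ ∃ g : I, φ g = t ∧ ∀ b ∈ B, ∃ c : F, g.1 b = c • b)

section Crit

variable {F : Type*} [Field F] {V : Type*} [AddCommGroup V] [Module F V] {K : Type*} [Group K] {m : ℕ} {B : Set V}
  {ℓ : ℕ}

theorem coe_pow_lin (g : V ≃ₗ[F] V) (k : ℕ) : ((g ^ k : V ≃ₗ[F] V) : V →ₗ[F] V) = (g : V →ₗ[F] V) ^ k := by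
  induction k with
  | zero => rfl
  | succ k ih => rw [pow_succ, pow_succ, ← ih]; rfl

theorem not_dvd_of_orderOf [Finite F] {r : ℕ} (h : 2 ≤ orderOf ((Nat.card F : ℕ) : ZMod r)) : ¬ r ∣ Nat.card F - 1 := by
  intro hd
  have h1 : ((Nat.card F : ℕ) : ZMod r) = 1 := by
    have h2 : Nat.card F ≡ 1 [MOD r] := ((Nat.modEq_iff_dvd' (Nat.succ_le_of_lt Nat.card_pos)).2 hd).symm
    have h3 := (ZMod.natCast_eq_natCast_iff _ _ _).2 h2
    rwa [Nat.cast_one] at h3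
  rw [h1, orderOf_one] at h
  omega

/-- scalars are trivial in a simple group -/
theorem scalar_ker [IsSimpleGroup K] (hna : ∃ a b : K, a * b ≠ b * a) {I : Subgroup (V ≃ₗ[F] V)} {φ : I →* K}
    (hφ : Function.Surjective φ) {A : I} {c : F} (hA : ∀ v, A.1 v = c • v) : φ A = 1 := by
  have h1 : φ A ∈ Subgroup.center K := by
    rw [Subgroup.mem_center_iff]
    intro k
    obtain ⟨g, rfl⟩ := hφ k
    rw [← map_mul, ← map_mul]
    congr 1
    apply Subtype.ext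
    ext v
    show g.1 (A.1 v) = A.1 (g.1 v)
    rw [hA, hA, map_smul]
  rcases (inferInstance : (Subgroup.center K).Normal).eq_bot_or_eq_top with h | h
  · rw [h] at h1
    exact h1
  · obtain ⟨a, b, hab⟩ := hna
    have ha : a ∈ Subgroup.center K := by rw [h]; trivial
    exact absurd ((Subgroup.mem_center_iff.1 ha) b).symm hab

/-- **Full criterion.** -/
theorem row_full (hl : ℓ.Prime) [Finite F] [FiniteDimensional F V] (hV : 2 ≤ finrank F V) [Finite K] [IsSimpleGroup K]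
    (hna : ∃ a b : K, a * b ≠ b * a) (R : Real ℓ F K m B) (hB : ∃ b ∈ B, b ≠ 0) {p : ℕ} [hp : Fact p.Prime]
    (hp2 : p ≠ 2) (hlp : ℓ ≠ p) (hd : p ∣ Nat.card K) (hm0 : m ≠ 0)
    (h2 : p ∣ m → p ^ (m.factorization p + 1) ∣ Nat.card K)
    (h3 : p ∣ m → ∃ r, r.Prime ∧ r ≠ p ∧ r ∣ Nat.card K ∧ (r : F) ≠ 0 ∧
      finrank F V ≤ orderOf ((Nat.card F : ℕ) : ZMod r)) : Row p K := by
  haveI : Nontrivial V := Module.nontrivial_of_finrank_pos (R := F) (by omega)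
  refine row_of_Q hl R.rgd hp2 hlp hd hm0 (fun t ht => ht.1) h2 fun hpm => ?_
  obtain ⟨r, hr, hrp, hrd, hrF, hk⟩ := h3 hpm
  refine ⟨r, hr, hrp, hrd, ?_⟩
  rintro a x ha ⟨-, A, rfl, hA⟩ hx hcomm
  have hr1 : ¬ r ∣ Nat.card F - 1 := not_dvd_of_orderOf (hV.trans hk)
  obtain ⟨X, hXx, hX, hcom⟩ := exists_lift R.φ R.surj R.I.subtype R.I.subtype_injective R.ker hr hr1
    (x := x) (by rw [← hx]; exact pow_orderOf_eq_one x)
  have hAX : Commute A X := hcom A hcomm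
  obtain ⟨b, hbB, hb⟩ := hB
  obtain ⟨c, hc⟩ := hA b hbB
  have hX1 : (X.1 : V →ₗ[F] V) ≠ 1 := by
    intro h
    have h1 : X = 1 := by
      apply Subtype.ext
      ext v
      exact LinearMap.congr_fun h v
    rw [h1, map_one] at hXx
    rw [← hXx, orderOf_one] at hx
    exact hr.one_lt.ne hx
  have hXr : (X.1 : V →ₗ[F] V) ^ r = 1 := by
    rw [← coe_pow_lin]
    have h1 : X.1 ^ r = 1 := congrArg Subtype.val hX
    rw [h1]
    rfl
  have hXA : Commute (X.1 : V →ₗ[F] V) (A.1 : V →ₗ[F] V) := by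
    apply LinearMap.ext
    intro v
    have h1 : (X * A).1 v = (A * X).1 v := by rw [hAX.eq]
    exact h1
  have hsc := scal_full hr hrF (X.1 : V →ₗ[F] V) (A.1 : V →ₗ[F] V) hXA hXr hX1 hk hb hc
  have h1 := scalar_ker hna R.surj (A := A) hsc
  rw [h1, orderOf_one] at ha
  exact hp.out.one_lt.ne ha

/-- the dimension of `range (X - 1)` -/
theorem finrank_range_le [Finite F] [FiniteDimensional F V] {r : ℕ} (hr : r.Prime) (hrF : (r : F) ≠ 0) {x : V →ₗ[F] V}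
    (hx : x ^ r = 1) (hk : finrank F V < 2 * orderOf ((Nat.card F : ℕ) : ZMod r)) :
    finrank F (LinearMap.range (x - 1)) ≤ orderOf ((Nat.card F : ℕ) : ZMod r) := by
  have hxW : ∀ w ∈ LinearMap.range (x - 1), x w ∈ LinearMap.range (x - 1) := by
    rintro _ ⟨v, rfl⟩
    refine ⟨x v, ?_⟩
    rw [LinearMap.sub_apply, LinearMap.sub_apply, Module.End.one_apply, Module.End.one_apply, map_sub]
  obtain ⟨j, hj⟩ := dvd_finrank_of_fpf_submodule hr x hx _ hxW (fpf_range hrF x hx)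
  have h1 := Submodule.finrank_le (LinearMap.range (x - 1))
  rcases Nat.lt_or_ge j 2 with h | h
  · rw [hj]
    have : j ≤ 1 := by omega
    calc orderOf ((Nat.card F : ℕ) : ZMod r) * j ≤ orderOf ((Nat.card F : ℕ) : ZMod r) * 1 := Nat.mul_le_mul_left _ this
      _ = _ := mul_one _
  · have h2 : orderOf ((Nat.card F : ℕ) : ZMod r) * 2 ≤ orderOf ((Nat.card F : ℕ) : ZMod r) * j :=
      Nat.mul_le_mul_left _ h
    omega

/-- **Frame criterion.** -/
theorem row_frame (hl : ℓ.Prime) [Finite F] [FiniteDimensional F V] [Nontrivial V] [Finite K] [IsSimpleGroup K]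
    (R : Real ℓ F K m B) (hB : ∃ b, b ∈ B)
    (hsq : ∀ (A : R.I) (c : F), (∀ b ∈ B, A.1 b = c • b) → R.φ A ^ 2 = 1) {p : ℕ} [hp : Fact p.Prime]
    (hp2 : p ≠ 2) (hlp : ℓ ≠ p) (hd : p ∣ Nat.card K) (hm0 : m ≠ 0)
    (h2 : p ∣ m → p ^ (m.factorization p + 1) ∣ Nat.card K)
    (h3 : p ∣ m → ∃ r, r.Prime ∧ r ≠ p ∧ r ∣ Nat.card K ∧ (r : F) ≠ 0 ∧
      2 ≤ orderOf ((Nat.card F : ℕ) : ZMod r) ∧ finrank F V < 2 * orderOf ((Nat.card F : ℕ) : ZMod r) ∧
      ∀ X : R.I, X.1 ^ r = 1 → X.1 ≠ 1 → ∀ b ∈ B, X.1 b ≠ b) : Row p K := by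
  refine row_of_Q hl R.rgd hp2 hlp hd hm0 (fun t ht => ht.1) h2 fun hpm => ?_
  obtain ⟨r, hr, hrp, hrd, hrF, hk2, hk, hmv⟩ := h3 hpm
  refine ⟨r, hr, hrp, hrd, ?_⟩
  rintro a x ha ⟨-, A, rfl, hA⟩ hx hcomm
  have hr1 : ¬ r ∣ Nat.card F - 1 := not_dvd_of_orderOf hk2
  obtain ⟨X, hXx, hX, hcom⟩ := exists_lift R.φ R.surj R.I.subtype R.I.subtype_injective R.ker hr hr1
    (x := x) (by rw [← hx]; exact pow_orderOf_eq_one x)
  have hAX : Commute A X := hcom A hcomm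
  have hX1 : X.1 ≠ 1 := by
    intro h
    have h1 : X = 1 := Subtype.ext h
    rw [h1, map_one] at hXx
    rw [← hXx, orderOf_one] at hx
    exact hr.one_lt.ne hx
  have hXr' : X.1 ^ r = 1 := congrArg Subtype.val hX
  have hXr : (X.1 : V →ₗ[F] V) ^ r = 1 := by
    rw [← coe_pow_lin, hXr']
    rfl
  have hXA : Commute (X.1 : V →ₗ[F] V) (A.1 : V →ₗ[F] V) := by
    apply LinearMap.ext
    intro v
    have h1 : (X * A).1 v = (A * X).1 v := by rw [hAX.eq]
    exact h1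
  have hrange := finrank_range_le hr hrF hXr hk
  obtain ⟨b₀, hb₀⟩ := hB
  obtain ⟨c, hc⟩ := hA b₀ hb₀
  have hsc : ∀ b ∈ B, A.1 b = c • b := by
    intro b hb
    obtain ⟨c', hc'⟩ := hA b hb
    rw [scal_frame hr hrF (X.1 : V →ₗ[F] V) (A.1 : V →ₗ[F] V) hXA hXr hrange (hmv X hXr' hX1 b₀ hb₀)
      (hmv X hXr' hX1 b hb) hc hc', hc']
  have h1 := hsq A c hsc
  have h4 : p ∣ 2 := by rw [← ha]; exact orderOf_dvd_of_pow_eq_one h1
  exact hp2 ((Nat.prime_dvd_prime_iff_eq hp.out Nat.prime_two).1 h4)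

end Crit

/-! ### Witt models -/

section Witt

open Cfsg
open Cfsg.Agent.ChevalleyStructure.CoxeterGeom Cfsg.Agent.Tits.Roots
open Cfsg.Agent.Nodes.Comb Cfsg.Agent.Nodes.Reps Cfsg.Agent.Nodes.WittRoot Cfsg.Agent.Nodes.BNOf
open Cfsg.Agent.Nodes Cfsg.Agent.Nodes.RGDLib Cfsg.Agent.Nodes.WittAll Cfsg.Agent.Nodes.WittU Cfsg.Agent.Nodes.RGDChev
open Cfsg.Agent.Nodes.WittInst
open Cfsg.Agent.Nodes.WittRGD (Tor mem_Tor)
open Cfsg.Agent.TitsThree Cfsg.Agent.TitsThree.Siegel Cfsg.Agent.TitsThree.SiegelGen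
  Cfsg.Agent.TitsThree.WittFrame Cfsg.Agent.TitsThree.WBridge Cfsg.Agent.TitsThree.WittWeyl
  Cfsg.Agent.TitsThree.FrameCN
open Cfsg.Agent.H716.RGDAb (eq_one_of_fix finrank_V0)

variable {F : Type*} [Field F] {V : Type*} [AddCommGroup V] [Module F V] {H : HForm F V} {n : ℕ}
  {Fr : Frame H (Fin n)} {G0 : Subgroup (V ≃ₗ[F] V)}

/-- a linear map with all vectors as eigenvectors is scalar -/
theorem scalar_of_lines {g : V ≃ₗ[F] V} (h : ∀ v, ∃ c : F, g v = c • v) : ∃ c : F, ∀ v, g v = c • v := by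
  by_cases h0 : ∃ v : V, v ≠ 0
  · obtain ⟨v, hv⟩ := h0
    obtain ⟨c, hc⟩ := h v
    refine ⟨c, fun w => ?_⟩
    obtain ⟨d, hd⟩ := h w
    obtain ⟨e, he⟩ := h (v + w)
    by_cases hw : ∃ a : F, w = a • v
    · obtain ⟨a, rfl⟩ := hw
      rw [map_smul, hc, smul_comm]
    · have h1 : (c - e) • v + (d - e) • w = 0 := by
        rw [map_add, hc, hd, smul_add] at he
        rw [sub_smul, sub_smul]
        have h2 := sub_eq_zero.2 he
        rw [← h2]
        abel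
      have h2 : d - e = 0 := by
        by_contra hde
        apply hw
        refine ⟨-(d - e)⁻¹ * (c - e), ?_⟩
        have h3 : (d - e) • w = -((c - e) • v) := eq_neg_of_add_eq_zero_right h1
        calc w = (d - e)⁻¹ • ((d - e) • w) := by rw [smul_smul, inv_mul_cancel₀ hde, one_smul]
          _ = _ := by rw [h3, smul_neg, smul_smul, neg_mul, neg_smul]
      rw [h2, zero_smul, add_zero] at h1
      have h3 : c = e := sub_eq_zero.1 ((smul_eq_zero.1 h1).resolve_right hv)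
      rw [hd, h3, sub_eq_zero.1 h2]
  · push Not at h0
    exact ⟨1, fun v => by rw [h0 v, map_zero, smul_zero]⟩

/-- the exponent of the torus -/
theorem tor_pow [Finite F] (hV : ∀ v, (∀ x, H.h v (Fr.b x) = 0) → v ∈ Fr.V0) {m : ℕ} (hm : Nat.card F - 1 ∣ m)
    {g : V ≃ₗ[F] V} (hg : g ∈ Tor Fr G0) (h0 : ∀ w ∈ Fr.V0, (g ^ m) w = w) : g ^ m = 1 := by
  refine eq_one_of_fix hV (fun x => ?_) h0
  obtain ⟨c, hc0, hc⟩ := hg.2 x
  rw [id] at hc
  have key : ∀ k : ℕ, (g ^ k) (Fr.b x) = c ^ k • Fr.b x := by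
    intro k
    induction k with
    | zero => rw [pow_zero, pow_zero, one_smul]; rfl
    | succ k ih =>
      rw [pow_succ']
      show g ((g ^ k) (Fr.b x)) = _
      rw [ih, map_smul, hc, smul_smul, pow_succ]
  rw [key]
  have hcN : c ^ m = 1 := by
    obtain ⟨j, rfl⟩ := hm
    rw [pow_mul]
    have h1 : (Units.mk0 c hc0) ^ (Nat.card F - 1) = 1 := by rw [← Nat.card_units, pow_card_eq_one']
    have h2 := congrArg Units.val h1
    rw [Units.val_pow_eq_pow_val, Units.val_mk0, Units.val_one] at h2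
    rw [h2, one_pow]
  rw [hcN, one_smul]

/-- the action on the anisotropic part -/
theorem tor_pow_of_le_one {ℓ : ℕ} [Finite F] (hA : AmbT Fr ℓ G0) (hd : ∃ w0 : V, ∀ w ∈ Fr.V0, ∃ a : F, w = a • w0)
    {m : ℕ} (hm : Nat.card F - 1 ∣ m) {g : V ≃ₗ[F] V} (hg : g ∈ Tor Fr G0) : g ^ m = 1 := by
  refine tor_pow hA.V0 hm hg ?_
  obtain ⟨w0, hw0⟩ := hd
  have hV0 : ∀ w ∈ Fr.V0, g w ∈ Fr.V0 := fun w hw => hA.map_V0 hg.1 hg.2 (ρ := id) (fun _ => rfl) hw
  intro w hw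
  by_cases hw1 : w = 0
  · rw [hw1, map_zero]
  obtain ⟨a, ha⟩ := hw0 w hw
  have ha0 : a ≠ 0 := fun h => hw1 (by rw [ha, h, zero_smul])
  obtain ⟨b, hb⟩ := hw0 (g w) (hV0 w hw)
  set c := b * a⁻¹ with hc
  have hgw : g w = c • w := by
    rw [hb, ha, smul_smul, hc, mul_assoc, inv_mul_cancel₀ ha0, mul_one]
  have hc0 : c ≠ 0 := fun h => hw1 ((LinearEquiv.map_eq_zero_iff g).1 (by rw [hgw, h, zero_smul]))
  have key : ∀ k : ℕ, (g ^ k) w = c ^ k • w := by
    intro k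
    induction k with
    | zero => rw [pow_zero, pow_zero, one_smul]; rfl
    | succ k ih =>
      rw [pow_succ']
      show g ((g ^ k) w) = _
      rw [ih, map_smul, hgw, smul_smul, pow_succ]
  rw [key]
  have hcN : c ^ m = 1 := by
    obtain ⟨j, rfl⟩ := hm
    rw [pow_mul]
    have h1 : (Units.mk0 c hc0) ^ (Nat.card F - 1) = 1 := by rw [← Nat.card_units, pow_card_eq_one']
    have h2 := congrArg Units.val h1
    rw [Units.val_pow_eq_pow_val, Units.val_mk0, Units.val_one] at h2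
    rw [h2, one_pow]
  rw [hcN, one_smul]

/-- the action on the anisotropic part: general exponent -/
theorem tor_pow_of_card {ℓ : ℕ} [Finite F] (hA : AmbT Fr ℓ G0) {m : ℕ} (hm : Nat.card F - 1 ∣ m)
    (hm2 : Nat.card (Fr.V0 ≃ₗ[F] Fr.V0) ∣ m) {g : V ≃ₗ[F] V} (hg : g ∈ Tor Fr G0) : g ^ m = 1 := by
  refine tor_pow hA.V0 hm hg ?_
  have hV0 : ∀ w ∈ Fr.V0, g w ∈ Fr.V0 := fun w hw => hA.map_V0 hg.1 hg.2 (ρ := id) (fun _ => rfl) hw
  have hV0' : ∀ w ∈ Fr.V0, g⁻¹ w ∈ Fr.V0 := fun w hw => by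
    have hgi := (Tor Fr G0).inv_mem hg
    exact hA.map_V0 hgi.1 hgi.2 (ρ := id) (fun _ => rfl) hw
  let g0 : Fr.V0 ≃ₗ[F] Fr.V0 :=
    { toFun := fun w => ⟨g w.1, hV0 w.1 w.2⟩
      invFun := fun w => ⟨g⁻¹ w.1, hV0' w.1 w.2⟩
      map_add' := fun a b => Subtype.ext (map_add g a.1 b.1)
      map_smul' := fun c a => Subtype.ext (map_smul g c a.1)
      left_inv := fun a => Subtype.ext (g.symm_apply_apply a.1)
      right_inv := fun a => Subtype.ext (g.apply_symm_apply a.1) }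
  have hg0 : ∀ k : ℕ, ∀ w : Fr.V0, ((g0 ^ k) w : V) = (g ^ k) w.1 := by
    intro k
    induction k with
    | zero => intro w; rfl
    | succ k ih =>
      intro w
      rw [pow_succ, pow_succ]
      show ((g0 ^ k) (g0 w) : V) = (g ^ k) (g w.1)
      rw [ih]
      rfl
  have h1 : g0 ^ m = 1 := by
    obtain ⟨j, rfl⟩ := hm2
    rw [pow_mul, pow_card_eq_one', one_pow]
  intro w hw
  rw [← hg0 m ⟨w, hw⟩, h1]
  rfl

theorem exists_frame_ne (Fr : Frame H (Fin n)) (hn : 0 < n) : ∃ b ∈ Set.range Fr.b, b ≠ 0 := by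
  refine ⟨_, ⟨(⟨0, hn⟩, true), rfl⟩, fun h => ?_⟩
  have h1 := Fr.hb_neg_self (⟨0, hn⟩, true)
  have h2 := Fr.η_ne (⟨0, hn⟩, true)
  rw [h] at h1
  rw [← h1] at h2
  exact h2 (H.zero_right _)

/-- **Witt models of type `C`.** -/
noncomputable def real_C {K : Type*} [Group K] (M : Model Fr K) {ℓ : ℕ} (hA : AmbT Fr ℓ M.I) [Finite V]
    [Fact ℓ.Prime] [CharP F ℓ] {p0 : Fr.Adm} (hp0 : p0.c ≠ 0) (hn : 0 < n) {m : ℕ}
    (hm : ∀ g ∈ Tor Fr M.I, g ^ m = 1) : Real ℓ F K m (Set.range Fr.b) where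
  I := M.I
  φ := M.φ
  surj := by
    rw [← MonoidHom.range_eq_top]
    exact M.gen ⟨0, hn⟩ _ (fun i j _ t => ⟨⟨_, rfl⟩, ⟨_, rfl⟩⟩) (fun p => ⟨⟨_, rfl⟩, ⟨_, rfl⟩⟩)
  ker g hg := scalar_of_lines fun v => by
    obtain ⟨c, hc⟩ := M.ker v g hg
    exact ⟨c, hc⟩
  rgd := ⟨n, CoxeterMatrix.B n, TypeC.A n, TypeC.isCartan n, _, _, _, hn,
    TypeC.finite_W (CoxeterMatrix.B n).toCoxeterSystem,
    rgdC_model M hA hp0 _, WittModel.G1_eq_top _ hn _, by
      rintro _ ⟨s, hs, rfl⟩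
      have hs' : s.1 ∈ Tor Fr M.I := Subgroup.mem_subgroupOf.1 hs
      refine ⟨?_, s, rfl, ?_⟩
      · rw [← map_pow]
        have h1 : s ^ m = 1 := Subtype.ext (hm _ hs')
        rw [h1, map_one]
      · rintro _ ⟨x, rfl⟩
        obtain ⟨c, -, hc⟩ := hs'.2 x
        exact ⟨c, hc⟩⟩

end Witt

end Cfsg.Agent.H512.SylNum
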