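import Cfsg.Agent.H512.SylTwo
import Cfsg.Agent.Nodes.RGDLie
import Cfsg.Agent.FixBN.SplitRGD

/-!
# Root group data and the normaliser of a Sylow subgroup in the defining characteristic (for S3932)

* `HasRGDQ ℓ G Q` : root group datum of characteristic `ℓ` whose torus elements satisfy `Q`;
* `exists_sylow_Q` : if `p ≠ ℓ` does not divide the number of Sylow `ℓ`-subgroups then the elements of some Sylow
  `p`-subgroup satisfy `Q`;
* `row_of_Q` : the criterion.
-/

set_option autoImplicit false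
set_option linter.style.haveILetI false
set_option linter.unusedSectionVars false

namespace Cfsg.Agent.H512.SylNum

open Subgroup Cfsg
open CoxeterSystem Cfsg.Agent.ChevalleyStructure.CoxeterGeom Cfsg.Agent.Tits.Roots Cfsg.Agent.Tits.Core
  Cfsg.Agent.Tits.RootComb Cfsg.Agent.Nodes.Comb Cfsg.Agent.Nodes.Reps Cfsg.Agent.Nodes.BNOf
open Cfsg.Agent.Nodes Cfsg.Agent.Nodes.RGDLib

/-- A generating root group datum of characteristic `ℓ` and positive rank whose torus elements satisfy `Q`. -/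
def HasRGDQ (ℓ : ℕ) (G : Type*) [Group G] (Q : G → Prop) : Prop :=
  ∃ (l : ℕ) (M : CoxeterMatrix (Fin l)) (A : Fin l → Fin l → ℤ) (h : IsCartan M A) (T : Subgroup G) (n : Fin l → G)
    (X : (Fin l → ℤ) → Subgroup G), 0 < l ∧ Finite M.Group ∧ RGD M.toCoxeterSystem h ℓ T n X ∧
      RGDLib.G1 M.toCoxeterSystem h X = ⊤ ∧ ∀ t ∈ T, Q t

theorem HasRGDQ.of_equiv {ℓ : ℕ} {G H : Type*} [Group G] [Group H] (e : G ≃* H) {Q : G → Prop} {Q' : H → Prop}
    (hQ : ∀ g, Q g → Q' (e g)) (hG : HasRGDQ ℓ G Q) : HasRGDQ ℓ H Q' := by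
  obtain ⟨l, M, A, h, T, n, X, hl, hW, R, hX, hT⟩ := hG
  refine ⟨l, M, A, h, T.map e.toMonoidHom, fun i => e (n i), fun x => (X x).map e.toMonoidHom, hl, hW,
    RGDLib.rgd_map_of_injective R e.toMonoidHom e.injective, ?_, ?_⟩
  · have h1 : (RGDLib.G1 M.toCoxeterSystem h X).map e.toMonoidHom =
        RGDLib.G1 M.toCoxeterSystem h (fun x => (X x).map e.toMonoidHom) := by
      unfold RGDLib.G1 RGD.Sup
      rw [Subgroup.map_iSup]
    rw [← h1, hX, Subgroup.map_top_of_surjective _ e.surjective]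
  · rintro _ ⟨s, hs, rfl⟩
    exact hQ s (hT s hs)

variable {G : Type*} [Group G]

/-- in an `ℓ`-group a proper subgroup is not self-normalising -/
theorem exists_mem_normalizer [Finite G] {ℓ : ℕ} [hl : Fact ℓ.Prime] {U V : Subgroup G} (hV : IsPGroup ℓ V) (hle : U ≤ V)
    (hne : U ≠ V) : ∃ y ∈ V, y ∉ U ∧ y ∈ normalizer (U : Set G) := by
  have hnil : Group.IsNilpotent V := hV.isNilpotent
  have hlt : U.subgroupOf V < ⊤ := by
    rw [lt_top_iff_ne_top]
    intro h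
    rw [subgroupOf_eq_top] at h
    exact hne (le_antisymm hle h)
  have h1 := Group.normalizerCondition_of_isNilpotent (G := V) (U.subgroupOf V) hlt
  obtain ⟨y, hy, hyU⟩ := SetLike.exists_of_lt h1
  refine ⟨y, y.2, fun h => hyU (mem_subgroupOf.2 h), ?_⟩
  rw [mem_normalizer_iff]
  rw [mem_normalizer_iff] at hy
  intro x
  constructor
  · intro hx
    exact (hy ⟨x, hle hx⟩).1 hx
  · intro hx
    have h2 : x ∈ V := by
      have h3 : (y : G)⁻¹ * ((y : G) * x * (y : G)⁻¹) * y ∈ V := V.mul_mem (V.mul_mem (V.inv_mem y.2) (hle hx)) y.2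
      have h4 : (y : G)⁻¹ * ((y : G) * x * (y : G)⁻¹) * y = x := by group
      rwa [h4] at h3
    exact (hy ⟨x, h2⟩).2 hx

/-- **Sylow `p`-subgroups in the torus.** -/
theorem exists_sylow_Q [Finite G] [IsSimpleGroup G] {ℓ : ℕ} [hl : Fact ℓ.Prime] {Q : G → Prop} (hG : HasRGDQ ℓ G Q)
    {p : ℕ} [hp : Fact p.Prime] (hlp : ℓ ≠ p) (hn : ¬ p ∣ Nat.card (Sylow ℓ G)) :
    ∃ P : Sylow p G, ∀ x ∈ (P : Subgroup G), Q x := by
  obtain ⟨l, M, A, h, T, n, X, hl0, hW, R, hX, hT⟩ := hG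
  have hgen := RGDLib.rgd_gen_of_G1 R hX
  have hne : (R.bnPair hgen).S.Nonempty := ⟨n ⟨0, hl0⟩, ⟨0, hl0⟩, rfl⟩
  have hS := FixBN.SplitRGD.split_of_rgd hl.out R hgen (Cfsg.Agent.Tits.OfBN.normalCore_eq_bot (R.bnPair hgen) hne)
  set U : Subgroup G := RGD.Sup X (RGD.Pos M.toCoxeterSystem h) with hU
  have hNU : normalizer (U : Set G) = RGD.B M.toCoxeterSystem h T X := hS.normalizer_eq
  -- `U` is a Sylow `ℓ`-subgroup
  let US : Sylow ℓ G :=
    { toSubgroup := U
      isPGroup' := hS.isP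
      is_maximal' := by
        intro V hV hle
        by_contra hne
        obtain ⟨y, hyV, hyU, hyN⟩ := exists_mem_normalizer hV hle (fun h => hne h.symm)
        obtain ⟨k, hk⟩ := hV ⟨y, hyV⟩
        have hyB : y ∈ (R.bnPair hgen).B := by
          have : normalizer (U : Set G) = (R.bnPair hgen).B := hS.normalizer_eq
          rwa [← this]
        exact hyU (hS.mem_of_pow hyB (congrArg Subtype.val hk)) }
  -- a Sylow `p`-subgroup normalises `U`
  obtain ⟨P, hP⟩ := exists_norm_at (p := p) hn US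
  have hP' : (P : Subgroup G) ≤ RGD.B M.toCoxeterSystem h T X := by
    rw [← hNU]
    exact hP
  -- the order of `B`
  have hTU : ∀ x, x ∈ T → x ∈ U → x = 1 := by
    intro x hxT hxU
    obtain ⟨k, hk⟩ := (IsPGroup.iff_orderOf.1 hS.isP) ⟨x, hxU⟩
    rw [orderOf_mk] at hk
    have h1 : orderOf x ∣ Nat.card T := by
      have := orderOf_dvd_natCard (⟨x, hxT⟩ : T)
      rwa [orderOf_mk] at this
    have h2 : (orderOf x).Coprime (orderOf x) := by
      nth_rewrite 2 [hk]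
      exact Nat.Coprime.pow_right _ (Nat.Coprime.coprime_dvd_left h1 R.tcop)
    rw [Nat.coprime_self] at h2
    exact orderOf_eq_one_iff.1 h2
  have hcard : Nat.card (RGD.B M.toCoxeterSystem h T X) = Nat.card T * Nat.card U := by
    rw [← Nat.card_prod]
    symm
    refine Nat.card_congr (Equiv.ofBijective (fun tu : T × U =>
      (⟨tu.1 * tu.2, mul_mem (RGD.T_le_B tu.1.2) (RGD.U_le_B tu.2.2)⟩ : RGD.B M.toCoxeterSystem h T X)) ⟨?_, ?_⟩)
    · rintro ⟨t, u⟩ ⟨t', u'⟩ htu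
      have h1 : (t : G) * u = t' * u' := congrArg Subtype.val htu
      have h2 : (t' : G)⁻¹ * t = u' * (u : G)⁻¹ := by
        calc (t' : G)⁻¹ * t = (t' : G)⁻¹ * (t * u) * (u : G)⁻¹ := by group
          _ = (t' : G)⁻¹ * (t' * u') * (u : G)⁻¹ := by rw [h1]
          _ = _ := by group
      have h3 : (t' : G)⁻¹ * t = 1 := hTU _ (T.mul_mem (T.inv_mem t'.2) t.2) (by
        rw [h2]; exact U.mul_mem u'.2 (U.inv_mem u.2))
      have h4 : (t : G) = t' := (inv_mul_eq_one.1 h3).symm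
      have h5 : (u : G) = u' := by
        rw [h4] at h1
        exact mul_left_cancel h1
      exact Prod.ext (Subtype.ext h4) (Subtype.ext h5)
    · rintro ⟨b, hb⟩
      obtain ⟨t, ht, u, hu, rfl⟩ := R.mem_B.1 hb
      exact ⟨(⟨t, ht⟩, ⟨u, hu⟩), rfl⟩
  -- the Sylow `p`-subgroups of `T`
  obtain ⟨P1⟩ : Nonempty (Sylow p T) := inferInstance
  have hle1 : (P1 : Subgroup T).map T.subtype ≤ T := by
    rintro _ ⟨x, -, rfl⟩
    exact x.2
  have hdvd : p ^ (Nat.card G).factorization p ∣ Nat.card T := by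
    have h1 : Nat.card P ∣ Nat.card (RGD.B M.toCoxeterSystem h T X) := card_dvd_of_le hP'
    rw [P.card_eq_multiplicity, hcard] at h1
    refine Nat.Coprime.dvd_of_dvd_mul_right ?_ h1
    obtain ⟨k, hk⟩ := IsPGroup.iff_card.1 hS.isP
    rw [hk]
    exact Nat.Coprime.pow _ _ ((Nat.coprime_primes hp.out hl.out).2 hlp.symm)
  have hp1 : IsPGroup p ((P1 : Subgroup T).map T.subtype) := P1.2.map _
  refine ⟨Sylow.ofCard ((P1 : Subgroup T).map T.subtype) ?_, fun x hx => hT x (hle1 ?_)⟩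
  · have h1 : Nat.card ((P1 : Subgroup T).map T.subtype) = Nat.card P1 :=
      Nat.card_congr (((P1 : Subgroup T).equivMapOfInjective _ T.subtype_injective).symm.toEquiv)
    rw [h1, P1.card_eq_multiplicity]
    congr 1
    apply le_antisymm
    · exact (Nat.factorization_le_iff_dvd Nat.card_pos.ne' Nat.card_pos.ne').2 (card_subgroup_dvd_card T) p
    · exact (hp.out.pow_dvd_iff_le_factorization Nat.card_pos.ne').1 hdvd
  · exact hx

/-- **The criterion.** -/
theorem row_of_Q [Finite G] [IsSimpleGroup G] {ℓ : ℕ} (hl : ℓ.Prime) {Q : G → Prop} (hG : HasRGDQ ℓ G Q)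
    {p : ℕ} [hp : Fact p.Prime] (hp2 : p ≠ 2) (hlp : ℓ ≠ p) (hd : p ∣ Nat.card G)
    {m : ℕ} (hm0 : m ≠ 0) (hQ : ∀ t, Q t → t ^ m = 1)
    (h2 : p ∣ m → p ^ (m.factorization p + 1) ∣ Nat.card G)
    (h3 : p ∣ m → ∃ r, r.Prime ∧ r ≠ p ∧ r ∣ Nat.card G ∧
      ∀ a x : G, orderOf a = p → Q a → orderOf x = r → a * x ≠ x * a) : Row p G := by
  by_contra hrow
  have hlf := Fact.mk hl
  obtain ⟨P, hP⟩ := exists_sylow_Q hG hlp (not_row hrow ℓ)
  have hpm : p ∣ m := by
    obtain ⟨x, hxP, hx, -⟩ := exists_center P.2 (card_sylow_ne_one hd P)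
    rw [← hx]
    exact orderOf_dvd_of_pow_eq_one (hQ x (hP x hxP))
  have hnc : ¬ IsCyclic (P : Subgroup G) := by
    intro hcyc
    obtain ⟨g, hg⟩ := hcyc.exists_generator
    have hgo : orderOf (g : G) = Nat.card P := by
      rw [orderOf_coe, orderOf_eq_card_of_forall_mem_zpowers hg]
    have h4 : orderOf (g : G) ∣ m := orderOf_dvd_of_pow_eq_one (hQ _ (hP _ g.2))
    have h5 : p ^ (m.factorization p + 1) ∣ Nat.card P := P.pow_dvd_card_of_pow_dvd_card (h2 hpm)
    exact Nat.pow_succ_factorization_not_dvd hm0 hp.out (h5.trans (hgo ▸ h4))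
  obtain ⟨r, hr, hrp, hrd, hno⟩ := h3 hpm
  have hrf := Fact.mk hr
  obtain ⟨R, hR⟩ := exists_norm (p := p) (not_row hrow r) P.2
  obtain ⟨a, ha, x, -, h4, h5, h6⟩ := exists_comm_of_noncyclic hp2 hrp P.2 hnc R.2 (card_sylow_ne_one hrd R) hR
  exact hno a x h4 (hP a ha) h5 h6

end Cfsg.Agent.H512.SylNum
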